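import Mathlib
import Cfsg.Agent.H375.SZ.Two
import Cfsg.Agent.H168.Uni.SpZero
import Cfsg.Agent.H45.UniS.U

/-!
# Theorem (U) for `Sp_{2m}(p)`, `m` even, `p` odd (helper375)

`F` of prime order `p ≠ 2`, `m` even: every `p'`-element of `Sp_{2m}(p)` fixes a nonzero vector of every nonzero finite
module in characteristic `p` on which `-1` acts trivially.
-/

set_option autoImplicit false

namespace Cfsg.Agent.H375.SZ

open Cfsg.Agent.H45.Uni Cfsg.Agent.H45.UniS Cfsg.Agent.H168.Uni.Sp

universe u v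

/-- (D) for all odd `p`, `m` even -/
theorem sZero {m p : ℕ} [Fact p.Prime] (hp2 : p ≠ 2) (hm : Even m) {k : Type*} [Field k] [CharP k p] [Infinite k] :
    SZero p m k := by
  intro n hn he
  obtain ⟨r, hr⟩ := hm
  rcases r with _ | r
  · obtain rfl : m = 0 := by omega
    refine ⟨1, 1, {0}, fun _ => 1, Finset.mem_singleton_self _, one_ne_zero, ?_⟩
    intro t
    simp [cs]
  · obtain rfl : m = 2 * r + 2 := by omega
    obtain ⟨u, u', v, v', c, hu, hv, hc, hZ⟩ := Zs_even (k := k) (p := p) hp2 r n hn 0 (Or.inl rfl) (by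
        rw [zero_add]
        exact_mod_cast even_AA n he)
    apply sZero_of_HasZ n hu hv hc
    convert hZ using 1
    funext t
    simp

/-- **Theorem (U)** for `Sp_{2m}(p)`, `m` even, `p` odd, modules with trivial action of `-1` -/
theorem exists_fix {p : ℕ} [hp : Fact p.Prime] (hp2 : p ≠ 2) {m : ℕ} (hm : Even m) {F : Type v} [Field F] [Fintype F]
    (hF : Fintype.card F = p) (x : SG m F)
    (hx : (orderOf x).Coprime p) (V : Type u) [AddCommGroup V] [Module (ZMod p) V] [Finite V]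
    [Nontrivial V] (ρ : SG m F →* (V ≃ₗ[ZMod p] V)) (hcen : ρ (ts fun _ => (-1 : Fˣ)) = 1) :
    ∃ w : V, w ≠ 0 ∧ ρ x w = w := by
  have hcF : CharP F p := charP_of_card hp.out hF
  have hck : CharP (AlgebraicClosure F) p :=
    charP_of_injective_algebraMap (algebraMap F (AlgebraicClosure F)).injective p
  have hp3 : 2 < p := lt_of_le_of_ne hp.out.two_le (Ne.symm hp2)
  have h2 : (2 : F) ≠ 0 := by
    intro h
    have h1 : ((2 : ℕ) : F) = 0 := by exact_mod_cast h
    rw [CharP.cast_eq_zero_iff F p] at h1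
    exact Nat.not_dvd_of_pos_of_lt (by norm_num) hp3 h1
  exact exists_fix_SG (p := p) hp3 hF (sZero hp2 hm) H421.UniS.sPgrp
    (fun W _ _ => H421.UniS.sWt (p := p) (hp.out.odd_of_ne_two hp2)) (fun W _ _ => H421.UniS.sNeg h2) x hx V ρ hcen

/-- **Theorem (U)** for `PSp_{2m}(p)`, `m` even, `p` odd -/
theorem fixAll {p : ℕ} [hp : Fact p.Prime] (hp2 : p ≠ 2) {m : ℕ} (hm : Even m) {F : Type v} [Field F] [Fintype F]
    (hF : Fintype.card F = p) (x : Cfsg.PSp m F)
    (hx : (orderOf x).Coprime p) : H425.KFix.FixAll.{u} p x := by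
  have hcF : CharP F p := charP_of_card hp.out hF
  have hck : CharP (AlgebraicClosure F) p :=
    charP_of_injective_algebraMap (algebraMap F (AlgebraicClosure F)).injective p
  have hp3 : 2 < p := lt_of_le_of_ne hp.out.two_le (Ne.symm hp2)
  have h2 : (2 : F) ≠ 0 := by
    intro h
    have h1 : ((2 : ℕ) : F) = 0 := by exact_mod_cast h
    rw [CharP.cast_eq_zero_iff F p] at h1
    exact Nat.not_dvd_of_pos_of_lt (by norm_num) hp3 h1
  exact fixAll_PSp_of (p := p) hp3 hF (sZero hp2 hm) H421.UniS.sPgrp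
    (fun W _ _ => H421.UniS.sWt (p := p) (hp.out.odd_of_ne_two hp2)) (fun W _ _ => H421.UniS.sNeg h2) x hx

end Cfsg.Agent.H375.SZ
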