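import Mathlib
import Cfsg.Agent.H375.SZ.Main
import Cfsg.Agent.S0245
import Cfsg.Agent.LieClassical.SympCenter

/-!
# S3536: own characteristic for `PSp_{2n}(q)`, `n = 2 ^ k` (helper375)
-/

set_option autoImplicit false

namespace Cfsg.Agent.H375.SZ

open Matrix Cfsg.Agent.H45.UniS Cfsg.Agent.LieClassical.SympCenter

universe u v

section map

variable {m : ℕ} {F K : Type*} [Field F] [Field K]

theorem map_mem_sp (f : F →+* K) {A : Matrix (Fin m ⊕ Fin m) (Fin m ⊕ Fin m) F} (hA : A ∈ symplecticGroup (Fin m) F) :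
    f.mapMatrix A ∈ symplecticGroup (Fin m) K := by
  rw [SymplecticGroup.mem_iff] at hA ⊢
  have hJ : f.mapMatrix (J (Fin m) F) = J (Fin m) K := by
    ext i j
    rcases i with i | i <;> rcases j with j | j <;> simp [J, Matrix.one_apply, apply_ite f]
  have h := congrArg f.mapMatrix hA
  rw [map_mul, map_mul, hJ] at h
  exact h

/-- extension of scalars -/
def spMap (m : ℕ) (f : F →+* K) : SG m F →* SG m K where
  toFun A := ⟨f.mapMatrix A.1, map_mem_sp f A.2⟩
  map_one' := Subtype.ext (map_one f.mapMatrix)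
  map_mul' A B := Subtype.ext (map_mul f.mapMatrix A.1 B.1)

theorem spMap_center (f : F →+* K) :
    Subgroup.center (symplecticGroup (Fin m) F) ≤ (Subgroup.center (symplecticGroup (Fin m) K)).comap (spMap m f) := by
  intro A hA
  rw [Subgroup.mem_comap, mem_center_iff]
  obtain ⟨a, ha⟩ := (mem_center_iff m A).1 hA
  refine ⟨f a, ?_⟩
  change f.mapMatrix A.1 = _
  rw [ha]
  ext i j
  simp [Matrix.one_apply, apply_ite f]

/-- extension of scalars -/
def pspMap (m : ℕ) (f : F →+* K) : Cfsg.PSp m F →* Cfsg.PSp m K :=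
  QuotientGroup.map _ _ (spMap m f) (spMap_center f)

theorem pspMap_injective (f : F →+* K) : Function.Injective (pspMap m f) := by
  rw [injective_iff_map_eq_one]
  intro x hx
  obtain ⟨A, rfl⟩ := QuotientGroup.mk_surjective x
  have h1 : spMap m f A ∈ Subgroup.center (symplecticGroup (Fin m) K) := (QuotientGroup.eq_one_iff _).1 hx
  refine (QuotientGroup.eq_one_iff _).2 ?_
  rw [Subgroup.mem_center_iff]
  intro B
  have h2 := (Subgroup.mem_center_iff.1 h1) (spMap m f B)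
  rw [← map_mul, ← map_mul] at h2
  have hinj : Function.Injective (spMap m f) := by
    intro X Y hXY
    apply Subtype.ext
    have h3 := congrArg Subtype.val hXY
    ext i j
    exact f.injective (congrFun (congrFun h3 i) j)
  exact hinj h2

end map

/-- elements of odd prime order of `PSp_{2m}(p)` -/
theorem exists_psp {m : ℕ} (hm : 1 ≤ m) {F : Type*} [Field F] [Fintype F] {r : ℕ} (hr : r.Prime) (hr2 : r ≠ 2)
    (hrd : r ∣ Nat.card (symplecticGroup (Fin m) F)) : ∃ x : Cfsg.PSp m F, orderOf x = r := by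
  have := finite_SG (m := m) (F := F)
  have : Fact r.Prime := ⟨hr⟩
  obtain ⟨y, hy⟩ := exists_prime_orderOf_dvd_card' r hrd
  refine ⟨QuotientGroup.mk y, ?_⟩
  have h1 : orderOf (QuotientGroup.mk y : Cfsg.PSp m F) ∣ r := by
    rw [← hy]
    exact orderOf_map_dvd (QuotientGroup.mk' _) y
  rcases (Nat.dvd_prime hr).1 h1 with h | h
  · rw [orderOf_eq_one_iff] at h
    obtain ⟨a, ha⟩ := (mem_center_iff m y).1 ((QuotientGroup.eq_one_iff _).1 h)
    have h2 : a * a = 1 := sq_eq_one_of_smul_mem hm (ha ▸ y.2)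
    have h3 : y ^ 2 = 1 := by
      apply Subtype.ext
      change y.1 ^ 2 = 1
      rw [ha, pow_two, smul_mul_smul_comm, h2, one_mul, one_smul]
    have h4 := orderOf_dvd_of_pow_eq_one h3
    rw [hy] at h4
    exact absurd ((Nat.prime_dvd_prime_iff_eq hr Nat.prime_two).1 h4) hr2
  · exact h

theorem dvd_card {m p : ℕ} (hm : 1 ≤ m) {r : ℕ} (hrm : r ∣ p ^ m + 1) (hpp : p.Prime)
    {F : Type*} [Field F] [Fintype F] (hF : Fintype.card F = p) : r ∣ Nat.card (symplecticGroup (Fin m) F) := by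
  rw [S0245.result hF m]
  apply Dvd.dvd.mul_left
  have h1 : r ∣ p ^ (2 * m) - 1 := by
    have h2 : p ^ (2 * m) - 1 = (p ^ m - 1) * (p ^ m + 1) := by
      obtain ⟨c, hc⟩ := Nat.exists_eq_add_of_le (Nat.one_le_pow m p hpp.pos)
      rw [mul_comm 2 m, pow_mul, hc]
      have : (1 + c) ^ 2 = c * (1 + c + 1) + 1 := by ring
      rw [this, Nat.add_sub_cancel, Nat.add_sub_cancel_left]
    rw [h2]
    exact hrm.mul_left _
  refine h1.trans ?_
  have h4 := Finset.dvd_prod_of_mem (fun i => p ^ (2 * (i + 1)) - 1) (Finset.mem_range.2 (show m - 1 < m by omega))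
  have h5 : m - 1 + 1 = m := by omega
  simpa only [h5] using h4

/-- `(p ^ n + 1) / 2` has an odd prime divisor for even `n`. -/
theorem exists_r {p k : ℕ} (hpp : p.Prime) (hp2 : p ≠ 2) (hk : 1 ≤ k) : ∃ r : ℕ, r.Prime ∧ r ≠ 2 ∧ r ∣ p ^ 2 ^ k + 1 := by
  have hodd := hpp.odd_of_ne_two hp2
  obtain ⟨j, rfl⟩ : ∃ j, k = j + 1 := ⟨k - 1, by omega⟩
  have h1 : Odd (p ^ 2 ^ j) := hodd.pow
  obtain ⟨c, hc⟩ := h1
  have hp3 : 3 ≤ p := by have := hpp.two_le; omega
  have h2 : p ^ 2 ^ (j + 1) + 1 = 2 * (2 * (c * (c + 1)) + 1) := by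
    rw [pow_succ, pow_mul, hc]
    ring
  have hc0 : 1 ≤ c := by
    have : 2 < p ^ 2 ^ j := lt_of_lt_of_le hp3 (Nat.le_self_pow (by positivity) p)
    omega
  have h3 : 2 * (c * (c + 1)) + 1 ≠ 1 := by
    have : 0 < c * (c + 1) := by positivity
    omega
  obtain ⟨r, hr, hrd⟩ := Nat.exists_prime_and_dvd h3
  refine ⟨r, hr, ?_, ?_⟩
  · rintro rfl
    omega
  · rw [h2]
    exact hrd.mul_left _

/-- images in `PSp m F`, `char F = p`, of the elements of `PSp m (ZMod p)` of order prime to `p` fix a nonzero vector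
of every module in characteristic `p` -/
theorem fixAll_sub {p : ℕ} [hp : Fact p.Prime] (hp2 : p ≠ 2) {m : ℕ} (hm : Even m) {F : Type v} [Field F] [CharP F p]
    (x : Cfsg.PSp m (ZMod p)) (hx : (orderOf x).Coprime p) :
    H425.KFix.FixAll.{u} p (pspMap m (ZMod.castHom (dvd_refl p) F) x) :=
  (fixAll hp2 hm (ZMod.card p) x hx).map _

/-- **S3536, the own-characteristic step for `PSp_{2n}(q)`, `n = 2 ^ k`.** -/
theorem fixed_psp {F : Type*} [Field F] [Fintype F] {p a k : ℕ} (hp : p.Prime) (hp2 : p ≠ 2) (ha : Odd a)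
    (hF : Fintype.card F = p ^ a) (hk : 1 ≤ k) {W : Type*} [CommGroup W] [Finite W] [Nontrivial W]
    (hW : ∀ w : W, w ^ p = 1) (φ : Cfsg.PSp (2 ^ k) F →* MulAut W) :
    ∃ (r : ℕ) (x : Cfsg.PSp (2 ^ k) F) (w : W), r.Prime ∧ r ≠ 2 ∧ r ∣ p ^ 2 ^ k + 1 ∧
      orderOf x = r ∧ w ≠ 1 ∧ φ x w = w := by
  have : Fact p.Prime := ⟨hp⟩
  have hcF : CharP F p := by
    obtain ⟨q, hq⟩ := CharP.exists F
    obtain ⟨n, hqp, hn⟩ := FiniteField.card F q
    rw [hF] at hn
    have : q = p := by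
      have h1 : q ∣ p ^ a := by rw [hn]; exact dvd_pow_self q n.ne_zero
      exact (Nat.prime_dvd_prime_iff_eq hqp hp).1 (hqp.dvd_of_dvd_pow h1)
    rwa [this] at hq
  obtain ⟨r, hr, hr2, hrd⟩ := exists_r (k := k) hp hp2 hk
  have h1 := dvd_card (m := 2 ^ k) Nat.one_le_two_pow hrd hp (ZMod.card p)
  obtain ⟨y, hy⟩ := exists_psp (m := 2 ^ k) (F := ZMod p) Nat.one_le_two_pow hr hr2 h1
  have hrp : r ≠ p := by
    rintro rfl
    have h3 : r ∣ r ^ 2 ^ k := dvd_pow_self r (by positivity)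
    have h4 := (Nat.dvd_add_right h3).1 hrd
    exact hr.one_lt.ne' (Nat.dvd_one.1 h4)
  have hU := fixAll_sub (p := p) (F := F) hp2 (m := 2 ^ k) ((Nat.even_pow.2 ⟨even_two, by omega⟩)) y
    (by rw [hy]; exact (Nat.coprime_primes hr hp).2 hrp)
  obtain ⟨w, hw1, hw⟩ := hU.mul hW φ
  exact ⟨r, _, w, hr, hr2, hrd, by rw [orderOf_injective _ (pspMap_injective _), hy], hw1, hw⟩

end Cfsg.Agent.H375.SZ
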